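import Mathlib
import Cfsg.Agent.Lib.Helper50.HUPT.Defs

set_option autoImplicit false

/-!
HUPT (S3360) package [NOP]: under (NI), a primitive prime divisor does not divide the order of an
abelian normal subgroup.
-/

universe u v

namespace Cfsg.Agent.Lib.Helper87.HUPT

open Cfsg.Agent.Lib.Helper50.HUPT
open Cfsg.Agent.Lib.Helper49.HUP (Irr)

theorem pkgNop (hPpdA : PkgPpdA.{u, v}) (hAbn : PkgAbn.{u, v}) : PkgNop.{u, v} := by
  intro q _ V _ _ _ _ G _ _ ρ hinj hTr hNI n p hn hcard hppd A hA hAb hdvd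
  haveI : Fact p.Prime := ⟨hppd.1⟩
  obtain ⟨y, hy⟩ := exists_prime_orderOf_dvd_card' (G := ↥A) p hdvd
  have hy' : orderOf (y : G) = p := by rw [Subgroup.orderOf_coe]; exact hy
  have hirr : Irr ρ (Subgroup.zpowers (y : G)) := hPpdA ρ hinj n p hn hcard hppd (y : G) hy'
  have hle : Subgroup.zpowers (y : G) ≤ A := by
    rw [Subgroup.zpowers_le]; exact y.2
  have hirrA : Irr ρ A := by
    intro W hW
    exact hirr W (fun a ha v hv => hW a (hle ha) v hv)
  have hcyc : IsCyclic A := (hAbn ρ hinj hTr A hA hAb).1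
  exact hNI ⟨A, hA, hcyc, hirrA⟩

end Cfsg.Agent.Lib.Helper87.HUPT
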