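import Mathlib
import Cfsg.Agent.Lib.Helper50.HUPT.Defs

set_option autoImplicit false

/-!
HUPT (S3360) package [ORB]: a group transitive on the non-zero vectors has order divisible by
`|V| - 1`.
-/

universe u v

namespace Cfsg.Agent.Lib.Helper87.HUPT

open Cfsg.Agent.Lib.Helper50.HUPT

theorem pkgOrb : PkgOrb.{u, v} := by
  intro q _ V _ _ _ _ G _ _ ρ hTr
  classical
  letI : MulAction G V :=
    { smul := fun g v => ρ g v
      one_smul := fun v => by
        show ρ 1 v = v
        rw [map_one]; rfl
      mul_smul := fun g h v => by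
        show ρ (g * h) v = ρ g (ρ h v)
        rw [map_mul]; rfl }
  have hsmul : ∀ (g : G) (v : V), g • v = ρ g v := fun _ _ => rfl
  obtain ⟨v₀, hv₀⟩ := exists_ne (0 : V)
  have horb : MulAction.orbit G v₀ = {v : V | v ≠ 0} := by
    ext w
    constructor
    · rintro ⟨g, rfl⟩
      show g • v₀ ≠ 0
      rw [hsmul]
      intro h
      apply hv₀
      have h1 : ρ g v₀ = ρ g 0 := by rw [h, map_zero]
      exact (ρ g).injective h1
    · intro hw
      obtain ⟨g, hg⟩ := hTr v₀ w hv₀ hw
      exact ⟨g, hg⟩
  have h1 : Nat.card (MulAction.orbit G v₀) ∣ Nat.card G := by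
    rw [Nat.card_congr (MulAction.orbitEquivQuotientStabilizer G v₀)]
    exact Subgroup.index_dvd_card (MulAction.stabilizer G v₀)
  have h2 : Nat.card (MulAction.orbit G v₀) = Nat.card V - 1 := by
    rw [horb]
    haveI := Fintype.ofFinite V
    have h3 : Nat.card {v : V | v ≠ 0} = Fintype.card {v : V // ¬ (v = 0)} := by
      rw [Nat.card_eq_fintype_card]
      rfl
    rw [h3, Fintype.card_subtype_compl, Fintype.card_subtype_eq, Nat.card_eq_fintype_card]
  rw [← h2]
  exact h1

end Cfsg.Agent.Lib.Helper87.HUPT
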